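import Mathlib

set_option autoImplicit false

/-! Singer groups: multiplication maps of a finite field extension. -/

namespace CfsgLib.Singer

variable (F K : Type*) [Field F] [Field K] [Algebra F K]

/-- multiplication maps -/
def singerGroup : Subgroup (Module.End F K)ˣ :=
  (Units.map ((Algebra.lmul F K : K →ₐ[F] Module.End F K) : K →* Module.End F K)).range

theorem mem_singerGroup_iff (e : (Module.End F K)ˣ) :
    e ∈ singerGroup F K ↔ ∃ a : K, (e : Module.End F K) = Algebra.lmul F K a := by
  constructor
  · rintro ⟨u, rfl⟩; exact ⟨u, rfl⟩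
  · rintro ⟨a, ha⟩
    have ha0 : a ≠ 0 := by
      rintro rfl
      rw [map_zero] at ha
      exact Units.ne_zero e ha
    exact ⟨Units.mk0 a ha0, Units.ext ha.symm⟩

variable {F K}

/-- conjugate of multiplication -/
def conjMul (g : (Module.End F K)ˣ) : K →ₐ[F] Module.End F K where
  toFun a := (g : Module.End F K) * Algebra.lmul F K a * ((g⁻¹ : (Module.End F K)ˣ) : Module.End F K)
  map_one' := by rw [map_one, mul_one, Units.mul_inv]
  map_mul' a b := by
    rw [map_mul]; simp only [mul_assoc, Units.inv_mul_cancel_left]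
  map_zero' := by simp
  map_add' a b := by simp [mul_add, add_mul]
  commutes' c := by
    rw [AlgHom.commutes, mul_assoc, Algebra.commutes c, ← mul_assoc, Units.mul_inv, one_mul]

theorem mem_map_conj_iff (g e : (Module.End F K)ˣ) :
    e ∈ (singerGroup F K).map (MulAut.conj g).toMonoidHom ↔ ∃ b : K, (e : Module.End F K) = conjMul g b := by
  constructor
  · rintro ⟨d, hd, rfl⟩
    obtain ⟨b, hb⟩ := (mem_singerGroup_iff F K d).mp hd
    exact ⟨b, by simp [conjMul, hb]⟩
  · rintro ⟨b, hb⟩
    refine ⟨g⁻¹ * e * g, (mem_singerGroup_iff F K _).mpr ⟨b, ?_⟩, by simp [mul_assoc]⟩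
    rw [Units.val_mul, Units.val_mul, hb]
    simp [conjMul, mul_assoc]

/-- the elements whose multiplication is a conjugate of a multiplication -/
def stableField [Finite K] (g : (Module.End F K)ˣ) : IntermediateField F K :=
  ((conjMul g).range.comap (Algebra.lmul F K)).toIntermediateField (by
    intro x hx
    rcases eq_or_ne x 0 with rfl | hx0
    · rw [inv_zero]; exact zero_mem _
    · have := Fintype.ofFinite K
      have h : x⁻¹ = x ^ (Fintype.card K - 2) := by
        apply inv_eq_of_mul_eq_one_left
        rw [← pow_succ]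
        have h1 : 1 < Fintype.card K := Fintype.one_lt_card
        rw [show Fintype.card K - 2 + 1 = Fintype.card K - 1 by omega]
        exact FiniteField.pow_card_sub_one_eq_one x hx0
      rw [h]; exact pow_mem hx _)

theorem mem_stableField [Finite K] {g : (Module.End F K)ˣ} {a : K} :
    a ∈ stableField g ↔ ∃ b, conjMul g b = Algebra.lmul F K a := Iff.rfl

theorem conj_eq_of_stableField_eq_top [Finite K] {g : (Module.End F K)ˣ} (h : stableField g = ⊤) :
    (singerGroup F K).map (MulAut.conj g).toMonoidHom = singerGroup F K := by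
  have := Fintype.ofFinite K
  have : Module.Finite F K := Module.Finite.of_finite
  refine le_antisymm ?_ ?_
  · -- images of multiplications: count
    intro e he
    obtain ⟨b, hb⟩ := (mem_map_conj_iff g e).mp he
    have hc : ∀ a : K, ∃ b, conjMul g b = Algebra.lmul F K a := fun a => by
      rw [← mem_stableField, h]; exact IntermediateField.mem_top
    choose s hs using hc
    have hinj : Function.Injective s := fun x y hxy => by
      have := (hs x).symm.trans (hxy ▸ hs y)
      exact Algebra.lmul_injective this
    obtain ⟨a, rfl⟩ := (Finite.injective_iff_surjective.mp hinj) b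
    exact (mem_singerGroup_iff F K e).mpr ⟨a, hb.trans (hs a)⟩
  · intro e he
    obtain ⟨a, ha⟩ := (mem_singerGroup_iff F K e).mp he
    have : a ∈ stableField g := by rw [h]; exact IntermediateField.mem_top
    obtain ⟨b, hb⟩ := mem_stableField.mp this
    exact (mem_map_conj_iff g e).mpr ⟨b, ha.trans hb.symm⟩

theorem card_inter [Finite K] (g : (Module.End F K)ˣ) :
    Nat.card ↥((singerGroup F K).map (MulAut.conj g).toMonoidHom ⊓ singerGroup F K)
      = Nat.card (stableField g) - 1 := by
  rw [← Nat.card_units (stableField g)]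
  symm
  have hm : ∀ u : (stableField g)ˣ,
      Units.map ((Algebra.lmul F K : K →ₐ[F] Module.End F K) : K →* Module.End F K)
        (Units.map ((stableField g).val : stableField g →* K) u)
        ∈ (singerGroup F K).map (MulAut.conj g).toMonoidHom ⊓ singerGroup F K := by
    intro u
    refine ⟨?_, ⟨_, rfl⟩⟩
    obtain ⟨b, hb⟩ := mem_stableField.mp (u : stableField g).2
    exact (mem_map_conj_iff g _).mpr ⟨b, hb.symm⟩
  refine Nat.card_eq_of_bijective (fun u => ⟨_, hm u⟩) ⟨fun u v h => ?_, fun e => ?_⟩
  · apply Units.ext; apply Subtype.ext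
    exact Algebra.lmul_injective (congrArg (fun z => ((z.1 : (Module.End F K)ˣ) : Module.End F K)) h)
  · obtain ⟨a, ha⟩ := (mem_singerGroup_iff F K _).mp e.2.2
    obtain ⟨b, hb⟩ := (mem_map_conj_iff g _).mp e.2.1
    have hmem : a ∈ stableField g := mem_stableField.mpr ⟨b, hb.symm.trans ha⟩
    have ha0 : (⟨a, hmem⟩ : stableField g) ≠ 0 := by
      intro h
      rw [show a = 0 from congrArg Subtype.val h, map_zero] at ha
      exact Units.ne_zero _ ha
    exact ⟨Units.mk0 _ ha0, Subtype.ext (Units.ext ha.symm)⟩

theorem normalizer_card (F K : Type*) [Field F] [Field K] [Algebra F K] [Finite K] :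
    Nat.card (Subgroup.normalizer ((singerGroup F K : Subgroup (Module.End F K)ˣ) : Set (Module.End F K)ˣ))
      = Nat.card (K ≃ₐ[F] K) * Nat.card Kˣ := by
  classical
  have hN : ∀ g : (Module.End F K)ˣ,
      g ∈ Subgroup.normalizer ((singerGroup F K : Subgroup (Module.End F K)ˣ) : Set (Module.End F K)ˣ) ↔
      (singerGroup F K).map (MulAut.conj g).toMonoidHom = singerGroup F K := by
    intro g
    rw [Subgroup.mem_normalizer_iff_map_conj_eq]
    rfl
  symm
  rw [← Nat.card_prod]
  let u : (K ≃ₐ[F] K) × Kˣ → (Module.End F K)ˣ := fun p =>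
    Units.map ((Algebra.lmul F K : K →ₐ[F] Module.End F K) : K →* Module.End F K) p.2
      * ⟨p.1.toLinearMap, p.1.symm.toLinearMap, LinearMap.ext fun x => p.1.apply_symm_apply x,
          LinearMap.ext fun x => p.1.symm_apply_apply x⟩
  have hu : ∀ p x, (u p : Module.End F K) x = (p.2 : K) * p.1 x := fun p x => rfl
  have hmem : ∀ p, u p ∈ Subgroup.normalizer
      ((singerGroup F K : Subgroup (Module.End F K)ˣ) : Set (Module.End F K)ˣ) := by
    intro p
    rw [hN]
    apply conj_eq_of_stableField_eq_top
    rw [eq_top_iff]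
    intro a _
    refine mem_stableField.mpr ⟨p.1.symm a, ?_⟩
    show (u p : Module.End F K) * Algebra.lmul F K (p.1.symm a) * ((u p)⁻¹ : (Module.End F K)ˣ) = _
    have : (u p : Module.End F K) * Algebra.lmul F K (p.1.symm a)
        = Algebra.lmul F K a * (u p : Module.End F K) := by
      apply LinearMap.ext; intro x
      show (p.2 : K) * p.1 (p.1.symm a * x) = a * ((p.2 : K) * p.1 x)
      rw [map_mul, AlgEquiv.apply_symm_apply]; ring
    rw [this, mul_assoc, Units.mul_inv, mul_one]
  refine Nat.card_eq_of_bijective (fun p => ⟨u p, hmem p⟩) ⟨fun p q h => ?_, fun g => ?_⟩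
  · have h' : ∀ x, (p.2 : K) * p.1 x = (q.2 : K) * q.1 x := fun x => by
      rw [← hu, ← hu]
      exact congrArg (fun z => ((z.1 : (Module.End F K)ˣ) : Module.End F K) x) h
    have h1 : (p.2 : K) = q.2 := by simpa using h' 1
    refine Prod.ext (AlgEquiv.ext fun x => ?_) (Units.ext h1)
    have := h' x
    rw [h1] at this
    exact mul_left_cancel₀ (Units.ne_zero q.2) this
  · have hg := (hN g.1).mp g.2
    have hex : ∀ a : K, ∃ b, conjMul g.1 a = Algebra.lmul F K b := by
      intro a
      rcases eq_or_ne a 0 with rfl | ha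
      · exact ⟨0, by simp⟩
      · have h : g.1 * Units.map ((Algebra.lmul F K : K →ₐ[F] Module.End F K) : K →* Module.End F K)
            (Units.mk0 a ha) * g.1⁻¹ ∈ singerGroup F K :=
          hg.le (Subgroup.mem_map_of_mem _ ⟨_, rfl⟩)
        obtain ⟨b, hb⟩ := (mem_singerGroup_iff F K _).mp h
        exact ⟨b, by rw [← hb]; simp [conjMul]⟩
    choose s hs using hex
    have hinj : Function.Injective (Algebra.lmul F K) := Algebra.lmul_injective
    let σh : K →ₐ[F] K :=
      { toFun := s
        map_one' := hinj (by rw [← hs, map_one, map_one])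
        map_mul' := fun x y => hinj (by rw [← hs, map_mul, map_mul, hs, hs])
        map_zero' := hinj (by rw [← hs, map_zero, map_zero])
        map_add' := fun x y => hinj (by rw [← hs, map_add, map_add, hs, hs])
        commutes' := fun c => hinj (by rw [← hs, AlgHom.commutes, AlgHom.commutes]) }
    have hbij : Function.Bijective σh := ⟨(σh : K →+* K).injective, Finite.injective_iff_surjective.mp (σh : K →+* K).injective⟩
    have hg1 : (g.1 : Module.End F K) 1 ≠ 0 := by
      intro h
      have hinv : ((g.1⁻¹ : (Module.End F K)ˣ) : Module.End F K) ((g.1 : Module.End F K) 1) = 1 := by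
        rw [← Module.End.mul_apply, Units.inv_mul, Module.End.one_apply]
      rw [h, map_zero] at hinv
      exact zero_ne_one hinv
    refine ⟨(AlgEquiv.ofBijective σh hbij, Units.mk0 _ hg1), Subtype.ext (Units.ext (LinearMap.ext fun x => ?_))⟩
    rw [hu]
    show (g.1 : Module.End F K) 1 * s x = (g.1 : Module.End F K) x
    have h2 : ((g.1 : Module.End F K) * Algebra.lmul F K x) = Algebra.lmul F K (s x) * (g.1 : Module.End F K) := by
      rw [← hs]; simp [conjMul, mul_assoc]
    have h3 := LinearMap.congr_fun h2 1
    simp only [Module.End.mul_apply, Algebra.lmul, LinearMap.mul, AlgHom.coe_mk] at h3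
    simp at h3
    rw [h3, mul_comm]

end CfsgLib.Singer
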